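import Cfsg.Agent.H683.HT.Row
import Cfsg.Agent.H892.HT.Disp
import Cfsg.Agent.H37.HT.Trans
import Cfsg.Agent.LieClassical.Grun
import Cfsg.Agent.AutOrth.Final

/-!
# S4933, part (O): the orthogonal rows (helper683)
-/

set_option autoImplicit false

namespace Cfsg.Agent.H683.HT

open QuadraticMap Module Cfsg.Agent.LieClassical.OrthCore Cfsg.Agent.LieClassical.OrthTrans
  Cfsg.Agent.LieClassical.OrthSimple Cfsg.Agent.LieClassical.OrthForms Cfsg.Agent.ClassicalGeometry.OrthSemi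
  Cfsg.Agent.ClassicalGeometry.OrthSemiForms
open Cfsg.Agent.H37.HT Cfsg.Agent.H316.HT

/-- `Row` only depends on the isomorphism type -/
theorem row_congr {p : ℕ} {S S' : Type} [Group S] [Group S'] (e : S ≃* S') (h : Row p S) : Row p S' :=
  fun A _ _ N _ he => h A N (he.map fun e' => e'.trans e.symm)

theorem abSyl_of_ab {p : ℕ} {S : Type} [Group S] (h : Cfsg.Agent.H892.HT.Ab p S) : AbSyl p S := by
  intro P x hx y hy
  have := h P
  exact congrArg Subtype.val (mul_comm' (⟨x, hx⟩ : (P : Subgroup S)) ⟨y, hy⟩)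

/-- the bound of the outer automorphism group -/
theorem out_le {S : Type} [Group S] [Finite S] (hc : Subgroup.center S = ⊥) {p c f : ℕ} [hp : Fact p.Prime]
    (hf : 0 < f) (h : Nat.card (MulAut S) = c * f * Nat.card S) (hpc : ¬ p ∣ c) :
    (Nat.card (Cfsg.Out S)).factorization p ≤ f.factorization p := by
  have h1 : Nat.card (Cfsg.Inn S) = Nat.card S := by
    refine (Nat.card_congr (MonoidHom.ofInjective (f := (MulAut.conj : S →* MulAut S)) ?_).toEquiv).symm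
    rw [← MonoidHom.ker_eq_bot_iff, eq_bot_iff]
    intro x hx
    rw [← hc, Subgroup.mem_center_iff]
    intro g
    have h2 := DFunLike.congr_fun (MonoidHom.mem_ker.1 hx) g
    have h3 : x * g * x⁻¹ = g := h2
    calc g * x = (x * g * x⁻¹) * x := by rw [h3]
      _ = x * g := by group
  have h2 := Subgroup.card_eq_card_quotient_mul_card_subgroup (Cfsg.Inn S)
  rw [h1, h] at h2
  have h3 : Nat.card (Cfsg.Out S) = c * f := (Nat.eq_of_mul_eq_mul_right Nat.card_pos h2).symm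
  rw [h3, Nat.factorization_mul (by rintro rfl; exact hpc (dvd_zero _)) hf.ne', Finsupp.add_apply,
    Nat.factorization_eq_zero_of_not_dvd hpc, zero_add]

theorem center_eq_bot {F V : Type} [Field F] [AddCommGroup V] [Module F V] {Q : QuadraticForm F V} (hG : Good Q) :
    Subgroup.center (↥(E Q) ⧸ Subgroup.center ↥(E Q)) = ⊥ := by
  rw [eq_bot_iff]
  intro x hx
  obtain ⟨x, rfl⟩ := QuotientGroup.mk'_surjective (Subgroup.center ↥(E Q)) x
  rw [Subgroup.mem_bot, QuotientGroup.mk'_apply, QuotientGroup.eq_one_iff]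
  refine Cfsg.Agent.LieClassical.Grun.mem_center_of_forall_commutator_mem (commutator_E hG) x fun g => ?_
  have h1 := Subgroup.mem_center_iff.1 hx (QuotientGroup.mk g)
  rw [← QuotientGroup.eq_one_iff]
  rw [QuotientGroup.mk'_apply] at h1
  rw [QuotientGroup.mk_mul, QuotientGroup.mk_mul, QuotientGroup.mk_mul, QuotientGroup.mk_inv, QuotientGroup.mk_inv,
    ← h1]
  group

/-- the prime and the degree of a finite field with its Frobenius automorphism -/
theorem exists_frob (F : Type) [Field F] [Fintype F] : ∃ (r f : ℕ) (_ : r.Prime) (σ : F ≃+* F), 0 < f ∧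
    Fintype.card F = r ^ f ∧ ∀ x, σ x = x ^ r := by
  obtain ⟨r, hr⟩ := CharP.exists F
  obtain ⟨n, hrp, hn⟩ := FiniteField.card F r
  have : Fact r.Prime := ⟨hrp⟩
  exact ⟨r, n, hrp, frobeniusEquiv F r, n.2, hn, fun x => rfl⟩

/-- the row when all automorphisms are induced by semisimilitudes -/
theorem row_surj {F V : Type} [Field F] [Fintype F] [AddCommGroup V] [Module F V] [FiniteDimensional F V]
    {Q : QuadraticForm F V} (hG : Good Q) (hsurj : Function.Surjective (Psi Q))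
    {p r f c : ℕ} [hp : Fact p.Prime] (hp2 : p ≠ 2) (hr : r.Prime) (hrp : r ≠ p)
    (hf : 0 < f) (hF : Fintype.card F = r ^ f)
    (hab : AbSyl p (↥(E Q) ⧸ Subgroup.center ↥(E Q)))
    (hcard : Nat.card (Psi Q).range = c * f * Nat.card (↥(E Q) ⧸ Subgroup.center ↥(E Q))) (hpc : ¬ p ∣ c)
    {σ : F ≃+* F} (hσ : ∀ x, σ x = x ^ r) (hex : ∃ (c : F) (M : Equiv.Perm V), IsSS Q σ c M)
    (hy : HasY Q p) : Row p (↥(E Q) ⧸ Subgroup.center ↥(E Q)) := by
  obtain ⟨c', M, hM⟩ := hex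
  have := finite_E Q
  refine row_good hG hp2 hr hrp hf hF hab (out_le (center_eq_bot hG) hf (c := c) ?_ hpc) hσ
    ⟨M, ⟨σ, c', hM⟩⟩ hM ?_ hy
  · rw [← card_range_of_surjective hsurj]
    exact hcard
  · intro g
    obtain ⟨N, rfl⟩ := hsurj g
    exact ⟨N, by rw [map_mul, map_mul, map_inv]⟩

section Final

variable {F : Type} [Field F] [Fintype F]

theorem not_dvd_of_dvd_two_pow {p : ℕ} [hp : Fact p.Prime] (hp2 : p ≠ 2) {c n : ℕ} (h : c ∣ 2 ^ n) : ¬ p ∣ c := by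
  intro hd
  exact hp2 ((Nat.prime_dvd_prime_iff_eq hp.out Nat.prime_two).1 (hp.out.dvd_of_dvd_pow (hd.trans h)))

theorem not_dvd_two_gcd {p : ℕ} [Fact p.Prime] (hp2 : p ≠ 2) (k : ℕ) : ¬ p ∣ 2 * Nat.gcd 4 k := by
  refine not_dvd_of_dvd_two_pow hp2 (n := 3) ?_
  have h : 2 * Nat.gcd 4 k ∣ 2 * 4 := mul_dvd_mul_left 2 (Nat.gcd_dvd_left 4 k)
  exact h

omit [Field F] in
theorem ne_of_card {p r f : ℕ} (hpF : ¬ p ∣ Fintype.card F) (hf : 0 < f) (hF : Fintype.card F = r ^ f) : r ≠ p := by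
  rintro rfl
  exact hpF (by rw [hF]; exact dvd_pow_self _ hf.ne')

theorem dvd_card_E {V : Type} [AddCommGroup V] [Module F V] {Q : QuadraticForm F V} {p : ℕ}
    (h : p ∣ Nat.card (↥(E Q) ⧸ Subgroup.center ↥(E Q))) : p ∣ Nat.card ↥(E Q) :=
  h.trans (Subgroup.card_quotient_dvd_card _)

/-- the existence of `y` for all good forms (box of helper462) -/
def AllY (p : ℕ) : Prop :=
  ∀ {F V : Type} [Field F] [Fintype F] [AddCommGroup V] [Module F V] [FiniteDimensional F V]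
    {Q : QuadraticForm F V}, Good Q → ¬ p ∣ Fintype.card F → p ∣ Nat.card ↥(E Q) → HasY Q p

/-- **the row `POmega_{2m+1}(q)`** -/
theorem oodd_of {p : ℕ} [hp : Fact p.Prime] (hY : AllY p) {m : ℕ} (hp2 : p ≠ 2) (hm : 3 ≤ m)
    (hodd : Odd (Fintype.card F)) (hpF : ¬ p ∣ Fintype.card F)
    (hab : Cfsg.Agent.H892.HT.Ab p (Cfsg.POmega F (Cfsg.quadFormOdd m F)))
    (hpd : p ∣ Nat.card (Cfsg.POmega F (Cfsg.quadFormOdd m F))) : Row p (Cfsg.POmega F (Cfsg.quadFormOdd m F)) := by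
  obtain ⟨r, f, hr, σ, hf, hF, hσ⟩ := exists_frob F
  have hrF : Fact r.Prime := ⟨hr⟩
  have h2 : (2 : F) ≠ 0 := Cfsg.Agent.LieClassical.PomegaCard.odd_card_iff.1 hodd
  have hG := good_odd (F := F) (m := m) (by omega) h2
  have e := pomegaEquiv hG
  rw [coe_oddForm] at e
  rw [Nat.card_congr e.toEquiv] at hpd
  have hrodd : Odd r := by
    rw [hF] at hodd
    exact (Nat.odd_pow_iff hf.ne').1 hodd
  refine row_congr e.symm (row_surj hG (Cfsg.Agent.AutOrth.Final.surjective_odd hm h2) (c := 2) hp2 hr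
    (ne_of_card hpF hf hF) hf hF ((abSyl_of_ab hab).congr e.symm) ?_
    (not_dvd_of_dvd_two_pow hp2 (n := 1) (dvd_refl _)) hσ ⟨1, odd_exists h2 m σ⟩ (hY hG hpF (dvd_card_E hpd)))
  rw [card_range_odd hf hF hrodd hm, Nat.card_congr e.toEquiv]

/-- **the row `POmega⁻_{2m}(q)`** -/
theorem ominus_of {p : ℕ} [hp : Fact p.Prime] (hY : AllY p) {m : ℕ} (a b : F) (hp2 : p ≠ 2) (hm : 4 ≤ m)
    (habn : ∀ z₁ z₂ : F, z₁ ^ 2 + a * z₁ * z₂ + b * z₂ ^ 2 = 0 → z₁ = 0 ∧ z₂ = 0) (hpF : ¬ p ∣ Fintype.card F)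
    (hab : Cfsg.Agent.H892.HT.Ab p (Cfsg.POmega F (Cfsg.quadFormMinus (m - 1) F a b)))
    (hpd : p ∣ Nat.card (Cfsg.POmega F (Cfsg.quadFormMinus (m - 1) F a b))) :
    Row p (Cfsg.POmega F (Cfsg.quadFormMinus (m - 1) F a b)) := by
  obtain ⟨r, f, hr, σ, hf, hF, hσ⟩ := exists_frob F
  have hrF : Fact r.Prime := ⟨hr⟩
  have hG := good_minus (F := F) (m := m - 1) (by omega) a b habn
  have e := pomegaEquiv hG
  rw [coe_minusForm] at e
  rw [Nat.card_congr e.toEquiv] at hpd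
  refine row_congr e.symm (row_surj hG (Cfsg.Agent.AutOrth.Final.surjective_minus (by omega) habn)
    (c := 2 * Nat.gcd 4 ((r ^ f) ^ m + 1)) hp2 hr
    (ne_of_card hpF hf hF) hf hF ((abSyl_of_ab hab).congr e.symm) ?_
    (not_dvd_two_gcd hp2 _) hσ
    ⟨1, minus_exists (m - 1) a b habn σ 1 one_ne_zero⟩ (hY hG hpF (dvd_card_E hpd)))
  rw [card_range_minus hf hF hm a b habn, Nat.card_congr e.toEquiv]

/-- **the row `POmega⁺_{2m}(q)`**, `m ≥ 5` -/
theorem oplus_of {p : ℕ} [hp : Fact p.Prime] (hY : AllY p) {m : ℕ} (hp2 : p ≠ 2) (hm : 5 ≤ m)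
    (hpF : ¬ p ∣ Fintype.card F)
    (hab : Cfsg.Agent.H892.HT.Ab p (Cfsg.POmega F (Cfsg.quadFormPlus m F)))
    (hpd : p ∣ Nat.card (Cfsg.POmega F (Cfsg.quadFormPlus m F))) :
    Row p (Cfsg.POmega F (Cfsg.quadFormPlus m F)) := by
  obtain ⟨r, f, hr, σ, hf, hF, hσ⟩ := exists_frob F
  have hrF : Fact r.Prime := ⟨hr⟩
  have hG := good_plus (F := F) (m := m) (by omega)
  have e := pomegaEquiv hG
  rw [coe_plusForm] at e
  rw [Nat.card_congr e.toEquiv] at hpd
  refine row_congr e.symm (row_surj hG (Cfsg.Agent.AutOrth.Final.surjective_plus hm)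
    (c := 2 * Nat.gcd 4 ((r ^ f) ^ m - 1)) hp2 hr
    (ne_of_card hpF hf hF) hf hF ((abSyl_of_ab hab).congr e.symm) ?_
    (not_dvd_two_gcd hp2 _) hσ
    ⟨1, plus_exists m σ 1 one_ne_zero⟩ (hY hG hpF (dvd_card_E hpd)))
  rw [card_range_plus hf hF (by omega), Nat.card_congr e.toEquiv]

end Final

end Cfsg.Agent.H683.HT
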