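import Cfsg.Agent.H683.HT.Rows
import Cfsg.Agent.H462.HT.Y

/-!
# S4933, part (O): the orthogonal rows `oodd`, `ominus`, `oplus` (`m ≥ 5`) (helper683)
-/

set_option autoImplicit false

namespace Cfsg.Agent.H683.HT

open QuadraticMap Module Cfsg.Agent.LieClassical.OrthCore Cfsg.Agent.LieClassical.OrthTrans
  Cfsg.Agent.LieClassical.OrthSimple

/-- the element `y` -/
theorem hasY {F V : Type} [Field F] [Fintype F] [AddCommGroup V] [Module F V] [FiniteDimensional F V]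
    {Q : QuadraticForm F V} (hG : Good Q) {p : ℕ} [hp : Fact p.Prime] (hp2 : p ≠ 2)
    (hpd : p ∣ Nat.card ↥(E Q)) : HasY Q p := by
  intro e m ω he ho hm hd hω
  obtain ⟨y, s, hy, hs, hc⟩ := Cfsg.Agent.H462.HT.exists_y hG hp.out hp2 hpd he ho hm hd hω
  have h1 : 1 % p ^ m = 1 := Nat.mod_eq_of_lt (Nat.one_lt_pow (by omega) hp.out.one_lt)
  refine ⟨y.1, y.2, congrArg Subtype.val hy, s, 1, hs, ?_, ?_⟩
  · intro h
    exact hp.out.one_lt.ne' (Nat.dvd_one.1 h)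
  · rw [h1]
    exact hc

theorem allY {p : ℕ} [Fact p.Prime] (hp2 : p ≠ 2) : AllY p := fun hG _ hpd => hasY hG hp2 hpd

section Final

variable {F : Type} [Field F] [Fintype F]

/-- **the row `POmega_{2m+1}(q)`** -/
theorem oodd {p : ℕ} [Fact p.Prime] {m : ℕ} (hp2 : p ≠ 2) (hm : 3 ≤ m) (hodd : Odd (Fintype.card F))
    (hpF : ¬ p ∣ Fintype.card F) (hab : Cfsg.Agent.H892.HT.Ab p (Cfsg.POmega F (Cfsg.quadFormOdd m F)))
    (hpd : p ∣ Nat.card (Cfsg.POmega F (Cfsg.quadFormOdd m F))) :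
    Cfsg.Agent.H316.HT.Row p (Cfsg.POmega F (Cfsg.quadFormOdd m F)) :=
  oodd_of (allY hp2) hp2 hm hodd hpF hab hpd

/-- **the row `POmega⁻_{2m}(q)`** -/
theorem ominus {p : ℕ} [Fact p.Prime] {m : ℕ} (a b : F) (hp2 : p ≠ 2) (hm : 4 ≤ m)
    (habn : ∀ z₁ z₂ : F, z₁ ^ 2 + a * z₁ * z₂ + b * z₂ ^ 2 = 0 → z₁ = 0 ∧ z₂ = 0) (hpF : ¬ p ∣ Fintype.card F)
    (hab : Cfsg.Agent.H892.HT.Ab p (Cfsg.POmega F (Cfsg.quadFormMinus (m - 1) F a b)))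
    (hpd : p ∣ Nat.card (Cfsg.POmega F (Cfsg.quadFormMinus (m - 1) F a b))) :
    Cfsg.Agent.H316.HT.Row p (Cfsg.POmega F (Cfsg.quadFormMinus (m - 1) F a b)) :=
  ominus_of (allY hp2) a b hp2 hm habn hpF hab hpd

/-- **the row `POmega⁺_{2m}(q)`**, `m ≥ 5` -/
theorem oplus_five {p : ℕ} [Fact p.Prime] {m : ℕ} (hp2 : p ≠ 2) (hm : 5 ≤ m) (hpF : ¬ p ∣ Fintype.card F)
    (hab : Cfsg.Agent.H892.HT.Ab p (Cfsg.POmega F (Cfsg.quadFormPlus m F)))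
    (hpd : p ∣ Nat.card (Cfsg.POmega F (Cfsg.quadFormPlus m F))) :
    Cfsg.Agent.H316.HT.Row p (Cfsg.POmega F (Cfsg.quadFormPlus m F)) :=
  oplus_of (allY hp2) hp2 hm hpF hab hpd

end Final

end Cfsg.Agent.H683.HT
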