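import Cfsg.Agent.H683.HT.Ed
import Cfsg.Agent.H37.HT.Main
import Mathlib.FieldTheory.IsAlgClosed.AlgebraicClosure

/-!
# S4933, part (O), orthogonal groups: the row of a good quadratic form, modulo the element `y` (helper683)
-/

set_option autoImplicit false

namespace Cfsg.Agent.H683.HT

open QuadraticMap Module Polynomial Cfsg.Agent.LieClassical.OrthCore Cfsg.Agent.LieClassical.OrthTrans
  Cfsg.Agent.LieClassical.OrthSimple Cfsg.Agent.ClassicalGeometry.OrthSemi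
open Cfsg.Agent.H37.HT Cfsg.Agent.H316.HT

variable {F V : Type} [Field F] [Fintype F] [AddCommGroup V] [Module F V] [FiniteDimensional F V]
  {Q : QuadraticForm F V}

/-- the element `y` (box of helper462) -/
def HasY (Q : QuadraticForm F V) (p : ℕ) : Prop :=
  ∀ (e m : ℕ) (ω : AlgebraicClosure F), 0 < e → orderOf ((Fintype.card F : ℕ) : ZMod p) = e → 1 ≤ m →
    p ^ (m + 1) ∣ Fintype.card F ^ e - 1 → IsPrimitiveRoot ω (p ^ (m + 1)) →
    ∃ T ∈ E Q, T ^ p ^ (m + 1) = 1 ∧ ∃ (s : Multiset ℕ) (r₀ : ℕ),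
      (((T : V →ₗ[F] V).charpoly).map (algebraMap F (AlgebraicClosure F))).roots = s.map (fun k => ω ^ k) ∧
      ¬ p ∣ r₀ ∧ ¬ p ∣ (s.filter fun k => k % p ^ m = r₀ % p ^ m).card

section Frob

variable {K : Type} [Field K] [IsAlgClosed K] [Algebra F K]

/-- automorphisms induced by semisimilitudes over the Frobenius automorphism -/
theorem ed_psi {p r f : ℕ} (hr : r.Prime) [CharP K r]
    (D : ED p r f (↥(E Q) ⧸ Subgroup.center ↥(E Q)) K)
    (h1 : ∀ t : ↥(E Q), IsP p t → D.E (QuotientGroup.mk t) =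
        (((t.1 : V →ₗ[F] V).charpoly).map (algebraMap F K)).roots)
    (h2 : ∀ x : ↥(E Q) ⧸ Subgroup.center ↥(E Q), IsP p x → ∃ t : ↥(E Q), IsP p t ∧ QuotientGroup.mk t = x)
    {σ : F ≃+* F} (hσ : ∀ x, σ x = x ^ r) (M : Gam Q) {c : F} (hM : IsSS Q σ c M.1)
    (x : ↥(E Q) ⧸ Subgroup.center ↥(E Q)) (hx : IsP p x) :
    D.E (Psi Q M x) = (D.E x).map fun a => a ^ r := by
  obtain ⟨t, ht, rfl⟩ := h2 x hx
  have ht' : IsP p (conjE Q M t) := by
    obtain ⟨k, hk⟩ := ht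
    exact ⟨k, by rw [← map_pow, hk, map_one]⟩
  rw [Psi_mk, h1 _ ht', h1 _ ht, coe_conjE, charpoly_conjLin M hM]
  exact roots_map_frobenius hr σ hσ _

end Frob

theorem isP_conj {p : ℕ} {S : Type} [Group S] {x : S} (hx : IsP p x) (g : S) : IsP p (g * x * g⁻¹) := by
  obtain ⟨k, hk⟩ := hx
  exact ⟨k, by rw [conj_pow, hk, mul_one, mul_inv_cancel]⟩

/-- the Frobenius automorphism commutes with all automorphisms -/
theorem isSS_conj {r : ℕ} {σ : F ≃+* F} (hσ : ∀ x, σ x = x ^ r) (M N : Gam Q) {c : F} (hM : IsSS Q σ c M.1) :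
    ∃ (σ' : F ≃+* F) (c' : F), (∀ x, σ' x = x ^ r) ∧ IsSS Q σ' c' (N * M * N⁻¹).1 := by
  obtain ⟨τ, d, hN⟩ := N.2
  refine ⟨_, _, fun x => ?_, (hN.mul hM).mul hN.inv⟩
  show τ (σ (τ.symm x)) = x ^ r
  rw [hσ, map_pow, RingEquiv.apply_symm_apply]

/-- **the generic row**, modulo the element `y` and the action of the automorphisms outside the semisimilitudes -/
theorem row_good (hG : Good Q) {p r f : ℕ} [hp : Fact p.Prime] (hp2 : p ≠ 2) (hr : r.Prime) (hrp : r ≠ p)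
    (hf : 0 < f) (hF : Fintype.card F = r ^ f)
    (hab : AbSyl p (↥(E Q) ⧸ Subgroup.center ↥(E Q)))
    (hout : (Nat.card (Cfsg.Out (↥(E Q) ⧸ Subgroup.center ↥(E Q)))).factorization p ≤ f.factorization p)
    {σ : F ≃+* F} (hσ : ∀ x, σ x = x ^ r) (M : Gam Q) {c : F} (hM : IsSS Q σ c M.1)
    (hcj : ∀ g : MulAut (↥(E Q) ⧸ Subgroup.center ↥(E Q)), ∃ N : Gam Q,
      (QuotientGroup.mk (g * Psi Q M * g⁻¹) : Cfsg.Out (↥(E Q) ⧸ Subgroup.center ↥(E Q))) =
        QuotientGroup.mk (Psi Q (N * M * N⁻¹)))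
    (hy : HasY Q p) : Row p (↥(E Q) ⧸ Subgroup.center ↥(E Q)) := by
  have hrF : Fact r.Prime := ⟨hr⟩
  have hpF : ¬ p ∣ Fintype.card F := by
    rw [hF]
    intro h
    exact hrp ((Nat.prime_dvd_prime_iff_eq hp.out hr).1 (hp.out.dvd_of_dvd_pow h)).symm
  have hcF : CharP F r := charP_of_card_eq_prime_pow hF
  have hcK : CharP (AlgebraicClosure F) r := charP_of_injective_algebraMap (algebraMap F (AlgebraicClosure F)).injective r
  have := finite_E Q
  obtain ⟨D, h1, h2⟩ := exists_ed (K := AlgebraicClosure F) hG hp2 hpF hF hab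
  have hpsi := fun (σ : F ≃+* F) (hσ : ∀ x, σ x = x ^ r) (M : Gam Q) (c : F) (hM : IsSS Q σ c M.1) =>
    ed_psi hr D h1 h2 hσ M hM
  refine row_of_ed hp2 hr hrp hf hab hout D ?_ (Psi Q M) (hpsi σ hσ M c hM) ?_ ?_
  · intro _ e m ω he ho hm hd _ hω
    rw [← hF] at ho hd
    obtain ⟨T, hT, hTp, s, r₀, hs, hr₀, hcard⟩ := hy e m ω he ho hm hd hω
    have hTP : IsP p (⟨T, hT⟩ : ↥(E Q)) := ⟨m + 1, Subtype.ext hTp⟩
    refine ⟨QuotientGroup.mk ⟨T, hT⟩, s, r₀, ?_, ?_, hr₀, Or.inl hcard⟩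
    · obtain ⟨k, hk⟩ := hTP
      exact ⟨k, by rw [← QuotientGroup.mk_pow, hk, QuotientGroup.mk_one]⟩
    · rw [h1 _ hTP]
      exact hs
  · refine ⟨4, ?_, ?_⟩
    · intro h
      have h4 : p ∣ 2 ^ 2 := h
      exact hp2 ((Nat.prime_dvd_prime_iff_eq hp.out Nat.prime_two).1 (hp.out.dvd_of_dvd_pow h4))
    · obtain ⟨d, hd⟩ := Cfsg.Agent.H334.Moved.isSS_pow hM f
      have hσf : σ ^ f = RingEquiv.refl F := by
        have h3 : ∀ (n : ℕ) (x : F), (σ ^ n) x = x ^ r ^ n := by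
          intro n
          induction n with
          | zero => intro x; rw [pow_zero, pow_zero, pow_one]; rfl
          | succ n ih =>
            intro x
            rw [pow_succ', pow_succ, pow_mul]
            show σ ((σ ^ n) x) = _
            rw [hσ, ih]
        ext x
        rw [h3, ← hF, FiniteField.pow_card]
        rfl
      rw [hσf] at hd
      have h3 := Cfsg.Agent.H988.CopCyc.Orth.pow_four_inner hG (M ^ f) (l := d) hd
      rw [map_pow, ← pow_mul, mul_comm f 4] at h3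
      exact h3
  · intro g x hx
    obtain ⟨N, hN⟩ := hcj g
    obtain ⟨s, hs⟩ := QuotientGroup.eq.1 hN
    obtain ⟨σ', c', hσ', hM'⟩ := isSS_conj hσ M N hM
    have h3 : Psi Q (N * M * N⁻¹) = (g * Psi Q M * g⁻¹) * MulAut.conj s := by
      rw [hs, mul_inv_cancel_left]
    have h4 : g (Psi Q M (g⁻¹ x)) = Psi Q (N * M * N⁻¹) (s⁻¹ * x * s⁻¹⁻¹) := by
      rw [h3]
      show _ = g (Psi Q M (g⁻¹ (s * (s⁻¹ * x * s⁻¹⁻¹) * s⁻¹)))
      congr 4
      group
    rw [h4, hpsi σ' hσ' _ c' hM' _ (isP_conj hx _), D.conj _ _ hx, hpsi σ hσ M c hM _ hx]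

end Cfsg.Agent.H683.HT
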